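import Mathlib
import Cfsg.Prelude.Def_Transfer
set_option linter.all false

/-!
# The normal 2-rank of a Sylow 2-subgroup: general group theory (helper100)

`Lower G k`: `G` has a normal elementary abelian 2-subgroup of order at least `2 ^ k`; `Upper G k`: all of them have order
at most `2 ^ k`. Both are invariant under isomorphisms (`Lower.congr`, `Upper.congr`); `lower_of`: a normal elementary
abelian 2-subgroup `E` of a subgroup `W` of odd index gives `Lower S k`.
-/

set_option autoImplicit false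

namespace Cfsg.Agent.H100.NormRank

/-- there is a normal elementary abelian 2-subgroup of order at least `2 ^ k` -/
def Lower (G : Type*) [Group G] (k : ℕ) : Prop :=
  ∃ E : Subgroup G, E.Normal ∧ Cfsg.IsElementaryAbelian 2 E ∧ 2 ^ k ≤ Nat.card ↥E

/-- all normal elementary abelian 2-subgroups have order at most `2 ^ k` -/
def Upper (G : Type*) [Group G] (k : ℕ) : Prop :=
  ∀ E : Subgroup G, E.Normal → Cfsg.IsElementaryAbelian 2 E → Nat.card ↥E ≤ 2 ^ k

theorem elemAb_iff {G : Type*} [Group G] {E : Subgroup G} :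
    Cfsg.IsElementaryAbelian 2 E ↔ (∀ a ∈ E, ∀ b ∈ E, a * b = b * a) ∧ ∀ a ∈ E, a * a = 1 := by
  constructor
  · rintro ⟨h1, h2⟩
    refine ⟨fun a ha b hb => ?_, fun a ha => by rw [← pow_two]; exact h2 a ha⟩
    exact congrArg Subtype.val (h1.is_comm.comm (⟨a, ha⟩ : E) ⟨b, hb⟩)
  · rintro ⟨h1, h2⟩
    refine ⟨⟨⟨fun a b => Subtype.ext (h1 a.1 a.2 b.1 b.2)⟩⟩, fun a ha => by rw [pow_two]; exact h2 a ha⟩

theorem elemAb_map {G H : Type*} [Group G] [Group H] (f : G →* H) {E : Subgroup G} (h : Cfsg.IsElementaryAbelian 2 E) :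
    Cfsg.IsElementaryAbelian 2 (E.map f) := by
  rw [elemAb_iff] at h ⊢
  constructor
  · rintro _ ⟨a, ha, rfl⟩ _ ⟨b, hb, rfl⟩
    rw [← map_mul, ← map_mul, h.1 a ha b hb]
  · rintro _ ⟨a, ha, rfl⟩
    rw [← map_mul, h.2 a ha, map_one]

theorem Lower.congr {G H : Type*} [Group G] [Group H] (e : G ≃* H) {k : ℕ} (h : Lower G k) : Lower H k := by
  obtain ⟨E, h1, h2, h3⟩ := h
  refine ⟨E.map e.toMonoidHom, h1.map _ e.surjective, elemAb_map _ h2, ?_⟩
  rw [Subgroup.card_map_of_injective e.injective]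
  exact h3

theorem Upper.congr {G H : Type*} [Group G] [Group H] (e : G ≃* H) {k : ℕ} (h : Upper G k) : Upper H k := by
  intro E h1 h2
  have h3 := h (E.map e.symm.toMonoidHom) (h1.map _ e.symm.surjective) (elemAb_map _ h2)
  rwa [Subgroup.card_map_of_injective e.symm.injective] at h3

/-- Sylow subgroups of isomorphic finite groups are isomorphic. -/
theorem sylow_equiv {G H : Type*} [Group G] [Group H] [Finite G] (e : G ≃* H) {p : ℕ} [Fact p.Prime] (S : Sylow p G)
    (T : Sylow p H) : Nonempty (S ≃* T) := by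
  have : Finite H := Finite.of_equiv _ e.toEquiv
  have h1 : S ≃* (S : Subgroup G).map e.toMonoidHom := (S : Subgroup G).equivMapOfInjective e.toMonoidHom e.injective
  exact ⟨h1.trans ((Sylow.mapSurjective (f := e.toMonoidHom) e.surjective S).equiv T)⟩

/-- A 2-subgroup whose order is the 2-part of the order of the group. -/
theorem exists_sylow_eq {G : Type*} [Group G] [Finite G] {p : ℕ} [Fact p.Prime] (P : Subgroup G)
    (h : Nat.card P = p ^ (Nat.card G).factorization p) : ∃ S : Sylow p G, (S : Subgroup G) = P :=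
  ⟨Sylow.ofCard P h, rfl⟩

/-- A normal elementary abelian 2-subgroup of a subgroup of odd index. -/
theorem lower_of {G : Type*} [Group G] [Finite G] (W E : Subgroup G) (hE : E ≤ W)
    (hn : ∀ w ∈ W, ∀ e ∈ E, w * e * w⁻¹ ∈ E) (h2 : Cfsg.IsElementaryAbelian 2 E)
    (hcard : (Nat.card W).factorization 2 = (Nat.card G).factorization 2) {k : ℕ} (hk : 2 ^ k ≤ Nat.card E)
    (S : Sylow 2 G) : Lower S k := by
  have hp : Fact (Nat.Prime 2) := ⟨Nat.prime_two⟩
  have T : Sylow 2 W := default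
  have hT : Nat.card ((T : Subgroup W).map W.subtype) = 2 ^ (Nat.card G).factorization 2 := by
    rw [Subgroup.card_map_of_injective W.subtype_injective, ← hcard]
    exact T.card_eq_multiplicity
  obtain ⟨S1, hS1⟩ := exists_sylow_eq _ hT
  have hEW : (E.subgroupOf W).Normal := by
    refine ⟨fun a ha g => ?_⟩
    exact hn g.1 g.2 a.1 ha
  have hEp : IsPGroup 2 (E.subgroupOf W) := by
    rintro ⟨a, ha⟩
    refine ⟨1, Subtype.ext (Subtype.ext ?_)⟩
    exact h2.2 a.1 ha
  have hle : E.subgroupOf W ≤ T := hEp.le_sylow_of_normal T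
  have hES : E ≤ (S1 : Subgroup G) := by
    rw [hS1]
    intro a ha
    exact ⟨⟨a, hE ha⟩, hle ha, rfl⟩
  have hSW : (S1 : Subgroup G) ≤ W := by
    rw [hS1]
    exact Subgroup.map_subtype_le _
  have h : Lower S1 k := by
    refine ⟨E.subgroupOf (S1 : Subgroup G), ⟨fun a ha g => hn g.1 (hSW g.2) a.1 ha⟩, ?_, ?_⟩
    · rw [elemAb_iff] at h2 ⊢
      exact ⟨fun a ha b hb => Subtype.ext (h2.1 a.1 ha b.1 hb), fun a ha => Subtype.ext (h2.2 a.1 ha)⟩
    · rw [Nat.card_congr (Subgroup.subgroupOfEquivOfLe hES).toEquiv]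
      exact hk
  exact h.congr (S1.equiv S)

/-- Transfer of a bound for all elementary abelian 2-subgroups of `G` to the subgroups of `S`. -/
theorem upper_of {G : Type*} [Group G] (S : Subgroup G) {k : ℕ}
    (h : ∀ E : Subgroup G, E ≤ S → (∀ s ∈ S, ∀ e ∈ E, s * e * s⁻¹ ∈ E) → (∀ a ∈ E, ∀ b ∈ E, a * b = b * a) →
      (∀ a ∈ E, a * a = 1) → Nat.card ↥E ≤ 2 ^ k) : Upper S k := by
  intro E h1 h2
  have h3 : Nat.card (E.map S.subtype) = Nat.card E := Subgroup.card_map_of_injective S.subtype_injective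
  rw [← h3]
  rw [elemAb_iff] at h2
  refine h _ (Subgroup.map_subtype_le _) ?_ ?_ ?_
  · rintro s hs _ ⟨e, he, rfl⟩
    exact ⟨⟨s, hs⟩ * e * ⟨s, hs⟩⁻¹, h1.conj_mem e he ⟨s, hs⟩, rfl⟩
  · rintro _ ⟨a, ha, rfl⟩ _ ⟨b, hb, rfl⟩
    rw [← map_mul, ← map_mul, h2.1 a ha b hb]
  · rintro _ ⟨a, ha, rfl⟩
    rw [← map_mul, h2.2 a ha, map_one]

end Cfsg.Agent.H100.NormRank
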