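import Cfsg.Agent.FooteOdd.PSU
import Cfsg.Agent.H100.Diag
import Cfsg.Agent.H100.NormRank
set_option linter.all false

-- part: H100/GLTwo
section
/-!
# The normal 2-rank of a Sylow 2-subgroup of `GL_n(q)`, `q` odd (helper100)
-/

set_option autoImplicit false

namespace Cfsg.Agent.H100.GLTwo

open Module Cfsg.Agent.FooteOdd Cfsg.Agent.H100.Diag Cfsg.Agent.H100.NormRank Equiv

variable {K : Type*} [Field K]

theorem finite_gl {ι : Type*} [Finite ι] [Finite K] : Finite ((ι → K) ≃ₗ[K] (ι → K)) :=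
  Finite.of_injective _ DFunLike.coe_injective

/-- weights of an elementary abelian 2-group of linear maps -/
theorem exists_wt {V : Type*} [AddCommGroup V] [Module K V] [FiniteDimensional K V] (two : (2 : K) ≠ 0)
    (E : Subgroup (V ≃ₗ[K] V)) [Finite E] (h1 : ∀ a ∈ E, ∀ b ∈ E, a * b = b * a) (h2 : ∀ a ∈ E, a * a = 1) {n : ℕ}
    (hn : finrank K V = n) : ∃ (b : Basis (Fin n) K V) (c : Fin n → E → K),
      (∀ (e : E) (j : Fin n), (e : V ≃ₗ[K] V) (b j) = c j e • b j) ∧ (∀ e j, c j e = 1 ∨ c j e = -1) ∧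
      ∀ [DecidableEq (E → K)], Nat.card E ≤ 2 ^ (Finset.image c Finset.univ).card := by
  classical
  obtain ⟨b, hb⟩ := exists_basis two (κ := E) (fun e => ((e : V ≃ₗ[K] V) : V →ₗ[K] V))
    (fun i j v => LinearEquiv.congr_fun (h1 i.1 i.2 j.1 j.2) v)
    (fun i v => LinearEquiv.congr_fun (h2 i.1 i.2) v) hn
  refine ⟨b, fun j e => if (e : V ≃ₗ[K] V) (b j) = b j then 1 else -1, ?_, ?_, ?_⟩
  · intro e j
    dsimp only
    split_ifs with h
    · rw [one_smul]; exact h
    · rw [neg_one_smul]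
      exact (hb e j).resolve_left h
  · intro e j
    dsimp only
    split_ifs
    · exact Or.inl rfl
    · exact Or.inr rfl
  · intro hd
    refine card_le E.subtype E.subtype_injective b _ ?_ ?_
    · intro e j
      change (e : V ≃ₗ[K] V) (b j) = _
      split_ifs with h
      · rw [one_smul]; exact h
      · rw [neg_one_smul]
        exact (hb e j).resolve_left h
    · intro e j
      split_ifs
      · exact Or.inl rfl
      · exact Or.inr rfl

/-- the `i`-th block of a vector -/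
def blkC {α β : Type*} (i : α) (v : Ix α β → K) : Fin 2 → K := fun s => v (Sum.inl (i, s))

theorem single_apply_eq {α β : Type*} [DecidableEq α] (i : α) (A : (Fin 2 → K) ≃ₗ[K] (Fin 2 → K)) (v : Ix α β → K) :
    J (Pi.mulSingle i A, (1 : β → Kˣ)) v = v + emb β i (A (blkC i v) - blkC i v) := by
  have h1 : v = (v - emb β i (blkC i v)) + emb β i (blkC i v) := by abel
  have h2 : ∀ k, (v - emb β i (blkC i v)) (Sum.inl (i, k)) = 0 := by
    intro k
    rw [Pi.sub_apply, emb_same]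
    exact sub_self _
  have h3 : J (Pi.mulSingle i A, (1 : β → Kˣ)) v = (v - emb β i (blkC i v)) + emb β i (A (blkC i v)) := by
    conv_lhs => rw [h1]
    rw [map_add, J_out i A h2, J_emb]
  rw [h3]
  have h4 : emb β i (A (blkC i v) - blkC i v) = emb β i (A (blkC i v)) - emb β i (blkC i v) := by
    funext o
    rcases o with (⟨k, s⟩ | k)
    · by_cases hk : k = i
      · subst hk
        rw [Pi.sub_apply, emb_same, emb_same, emb_same]; rfl
      · rw [Pi.sub_apply, emb_ne hk, emb_ne hk, emb_ne hk, sub_zero]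
    · rw [Pi.sub_apply, emb_inr, emb_inr, emb_inr, sub_zero]
  rw [h4]
  abel

theorem blkC_J {α β : Type*} [DecidableEq α] (i : α) (A : (Fin 2 → K) ≃ₗ[K] (Fin 2 → K)) (v : Ix α β → K) :
    blkC i (J (Pi.mulSingle i A, (1 : β → Kˣ)) v) = A (blkC i v) := by
  funext s
  change (J (Pi.mulSingle i A, (1 : β → Kˣ)) v) (Sum.inl (i, s)) = _
  rw [J_inl]
  change ((Pi.mulSingle i A : α → (Fin 2 → K) ≃ₗ[K] (Fin 2 → K)) i) _ s = _
  rw [Pi.mulSingle_eq_same]
  rfl

/-- the quadratic relation on the image of `x - 1` -/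
theorem rel_single {α β : Type*} [DecidableEq α] (i : α) (A : (Fin 2 → K) ≃ₗ[K] (Fin 2 → K)) (τ δ : K)
    (hA : ∀ u, A (A u) = τ • A u + δ • u) (v : Ix α β → K) :
    let x : (Ix α β → K) ≃ₗ[K] (Ix α β → K) := J (Pi.mulSingle i A, (1 : β → Kˣ))
    x (x (x v)) = x (x v) + τ • (x (x v) - x v) + δ • (x v - v) := by
  intro x
  have h0 : ∀ w : Ix α β → K, x w - w = emb β i (A (blkC i w) - blkC i w) := by
    intro w
    rw [sub_eq_iff_eq_add, add_comm]
    exact single_apply_eq i A w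
  have h1 : x v - v = emb β i (A (blkC i v) - blkC i v) := h0 v
  have h2 : x (x v) - x v = emb β i (A (A (blkC i v) - blkC i v)) := by
    rw [← map_sub, h1]
    exact J_emb i A _
  have h3 : x (x (x v)) - x (x v) = emb β i (A (A (A (blkC i v) - blkC i v))) := by
    rw [← map_sub, h2]
    exact J_emb i A _
  have h4 : ∀ (a b : K) (y z : Fin 2 → K), emb β i (a • y + b • z) = a • emb β i y + b • emb β i z := by
    intro a b y z
    funext o
    rcases o with (⟨k, s⟩ | k)
    · by_cases hk : k = i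
      · subst hk
        rw [Pi.add_apply, Pi.smul_apply, Pi.smul_apply, emb_same, emb_same, emb_same]; rfl
      · rw [Pi.add_apply, Pi.smul_apply, Pi.smul_apply, emb_ne hk, emb_ne hk, emb_ne hk]; simp
    · rw [Pi.add_apply, Pi.smul_apply, Pi.smul_apply, emb_inr, emb_inr, emb_inr]; simp
  rw [hA, h4, ← h1, ← h2] at h3
  rw [add_assoc, ← h3]
  abel

/-- **The block components of a weight vector of multiplicity one vanish.** -/
theorem blk_eq_zero {m r n : ℕ} (hns : ∀ c : K, c * c ≠ -1)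
    (E : Subgroup ((Ix (Fin m) (Fin r) → K) ≃ₗ[K] (Ix (Fin m) (Fin r) → K))) [Finite E]
    (b : Basis (Fin n) K (Ix (Fin m) (Fin r) → K)) (c : Fin n → E → K)
    (hc : ∀ (e : E) (j : Fin n), (e : (Ix (Fin m) (Fin r) → K) ≃ₗ[K] (Ix (Fin m) (Fin r) → K)) (b j) = c j e • b j)
    (i : Fin m) (A : (Fin 2 → K) ≃ₗ[K] (Fin 2 → K)) (τ δ : K)
    (hA : ∀ u, A (A u) = τ • A u + δ • u) (hA4 : ∀ u, A (A (A (A u))) = -u)
    (hnorm : ∀ e ∈ E, (J (Pi.mulSingle i A, (1 : Fin r → Kˣ)))⁻¹ * e * J (Pi.mulSingle i A, (1 : Fin r → Kˣ)) ∈ E)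
    (j : Fin n) (hj : ∀ l, c l = c j → l = j) : blkC i (b j) = 0 := by
  set x : (Ix (Fin m) (Fin r) → K) ≃ₗ[K] (Ix (Fin m) (Fin r) → K) := J (Pi.mulSingle i A, (1 : Fin r → Kˣ)) with hx
  by_contra hu
  set u : Fin 2 → K := blkC i (b j) with hudef
  -- the iterates
  let w : ℕ → (Ix (Fin m) (Fin r) → K) := fun k => (x ^ k) (b j)
  have hw0 : w 0 = b j := by simp [w]
  have hws : ∀ k, w (k + 1) = x (w k) := by
    intro k
    simp only [w]
    rw [pow_succ']
    rfl
  let φ : E → E := fun e => ⟨x⁻¹ * e * x, hnorm e.1 e.2⟩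
  have hφinj : Function.Injective φ := by
    intro a a' h
    have h1 : x⁻¹ * (a : (Ix (Fin m) (Fin r) → K) ≃ₗ[K] (Ix (Fin m) (Fin r) → K)) * x = x⁻¹ * a' * x := congrArg Subtype.val h
    exact Subtype.ext (mul_left_cancel (mul_right_cancel h1))
  have hφsurj : Function.Surjective φ := Finite.surjective_of_injective hφinj
  let χ : ℕ → E → K := fun k e => c j (φ^[k] e)
  have hχ : ∀ k (e : E), (e : (Ix (Fin m) (Fin r) → K) ≃ₗ[K] (Ix (Fin m) (Fin r) → K)) (w k) = χ k e • w k := by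
    intro k
    induction k with
    | zero => intro e; rw [hw0]; exact hc e j
    | succ k ih =>
      intro e
      have h1 : (e : (Ix (Fin m) (Fin r) → K) ≃ₗ[K] (Ix (Fin m) (Fin r) → K)) (x (w k)) =
          x (((φ e : E) : (Ix (Fin m) (Fin r) → K) ≃ₗ[K] (Ix (Fin m) (Fin r) → K)) (w k)) := by
        have : (e : (Ix (Fin m) (Fin r) → K) ≃ₗ[K] (Ix (Fin m) (Fin r) → K)) * x = x * (x⁻¹ * e * x) := by group
        exact LinearEquiv.congr_fun this (w k)
      rw [hws, h1, ih, map_smul]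
      simp only [χ, Function.iterate_succ_apply]
  have hwne : ∀ k, w k ≠ 0 := fun k h => b.ne_zero j ((x ^ k).map_eq_zero_iff.1 h)
  have hcoord : ∀ k l, b.repr (w k) l ≠ 0 → c l = χ k := by
    intro k l hl
    funext e
    have h1 : b.repr ((e : (Ix (Fin m) (Fin r) → K) ≃ₗ[K] (Ix (Fin m) (Fin r) → K)) (w k)) l = b.repr (χ k e • w k) l :=
      congrArg (fun v => b.repr v l) (hχ k e)
    have h2 : b.repr ((e : (Ix (Fin m) (Fin r) → K) ≃ₗ[K] (Ix (Fin m) (Fin r) → K)) (w k)) l = c l e * b.repr (w k) l := by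
      conv_lhs => rw [← b.sum_repr (w k)]
      rw [map_sum, map_sum, Finsupp.finsetSum_apply]
      rw [Finset.sum_eq_single l]
      · rw [map_smul, hc, smul_comm, map_smul, map_smul, Basis.repr_self]
        simp
      · intro l' _ hl'
        rw [map_smul, hc, map_smul, map_smul, Basis.repr_self]
        simp [hl']
      · intro h; exact absurd (Finset.mem_univ _) h
    rw [h2, map_smul, Finsupp.smul_apply, smul_eq_mul] at h1
    exact mul_right_cancel₀ hl h1
  have hrel : w 3 = w 2 + τ • (w 2 - w 1) + δ • (w 1 - w 0) := by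
    have := rel_single (β := Fin r) i A τ δ hA (b j)
    rw [hws 2, hws 1, hws 0, hw0]
    exact this
  have hex : ∃ d, (d = 1 ∨ d = 2 ∨ d = 3) ∧ χ d = c j := by
    by_contra hno
    push Not at hno
    have h3 : ∀ k, k < 3 → χ 3 ≠ χ k := by
      intro k hk h
      have hd : (3 - k = 1 ∨ 3 - k = 2 ∨ 3 - k = 3) := by omega
      apply hno (3 - k) hd
      funext e
      obtain ⟨e', he'⟩ := hφsurj.iterate k e
      have h1 := congrFun h e'
      simp only [χ] at h1 ⊢
      rw [← he', ← Function.iterate_add_apply, Nat.sub_add_cancel hk.le]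
      exact h1
    obtain ⟨l, hl⟩ : ∃ l, b.repr (w 3) l ≠ 0 := by
      by_contra hall
      push Not at hall
      apply hwne 3
      apply b.repr.map_eq_zero_iff.1
      ext l
      exact hall l
    have h4 : ∀ k, k < 3 → b.repr (w k) l = 0 := by
      intro k hk
      by_contra hne
      exact h3 k hk ((hcoord 3 l hl).symm.trans (hcoord k l hne))
    apply hl
    rw [hrel]
    simp only [map_add, map_sub, map_smul, Finsupp.add_apply, Finsupp.sub_apply, Finsupp.smul_apply, h4 0 (by norm_num),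
      h4 1 (by norm_num), h4 2 (by norm_num)]
    simp
  obtain ⟨d, hd, hχd⟩ := hex
  -- `w d` is a multiple of `b j`
  obtain ⟨t, ht⟩ : ∃ t : K, w d = t • b j := by
    refine ⟨b.repr (w d) j, ?_⟩
    conv_lhs => rw [← b.sum_repr (w d)]
    rw [Finset.sum_eq_single j]
    · intro l _ hl
      have : b.repr (w d) l = 0 := by
        by_contra hne
        exact hl (hj l ((hcoord d l hne).trans hχd))
      rw [this, zero_smul]
    · intro h; exact absurd (Finset.mem_univ _) h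
  have hblk : ∀ v, blkC i (x v) = A (blkC i v) := fun v => blkC_J i A v
  have hsm : ∀ (t : K) v, blkC i (t • v : Ix (Fin m) (Fin r) → K) = t • blkC i v := fun _ _ => rfl
  have hneg : ∀ s : K, s • u = -u → s = -1 := by
    intro s hs
    have : (s + 1) • u = 0 := by rw [add_smul, hs, one_smul, neg_add_cancel]
    rcases smul_eq_zero.1 this with h | h
    · exact eq_neg_of_add_eq_zero_left h
    · exact absurd h hu
  have hfour : ∀ s : K, A u ≠ s • u := by
    intro s h1
    have h7 : ∀ a : K, A (a • u) = (a * s) • u := fun a => by rw [map_smul, h1, smul_smul]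
    have h4 := hA4 u
    rw [h1, h7, h7, h7] at h4
    exact hns (s * s) (by rw [← hneg _ h4]; ring)
  rcases hd with rfl | rfl | rfl
  · have h1 : A u = t • u := by
      have := congrArg (blkC i) ht
      rw [hws 0, hw0, hblk, hsm] at this
      exact this
    exact hfour t h1
  · have h1 : A (A u) = t • u := by
      have := congrArg (blkC i) ht
      rw [hws 1, hws 0, hw0, hblk, hblk, hsm] at this
      exact this
    have h4 := hA4 u
    rw [h1, map_smul, map_smul, h1, smul_smul] at h4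
    exact hns t (hneg _ h4)
  · have h1 : A (A (A u)) = t • u := by
      have := congrArg (blkC i) ht
      rw [hws 2, hws 1, hws 0, hw0, hblk, hblk, hblk, hsm] at this
      exact this
    have h5 : t • A u = -u := by
      have := hA4 u
      rw [h1, map_smul] at this
      exact this
    have h6 : A u = -(t⁻¹ • u) := by
      have ht0 : t ≠ 0 := by
        rintro rfl
        rw [zero_smul] at h5
        exact hu (neg_eq_zero.1 h5.symm)
      rw [← smul_neg, ← h5, smul_smul, inv_mul_cancel₀ ht0, one_smul]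
    exact hfour (-t⁻¹) (by rw [h6, neg_smul])

/-! ### An element of order eight -/

theorem exists_A0 [Fintype K] (hq : Fintype.card K % 4 = 3) :
    ∃ (A : (Fin 2 → K) ≃ₗ[K] (Fin 2 → K)) (τ δ : K),
      (∀ u, A (A u) = τ • A u + δ • u) ∧ ∀ u, A (A (A (A u))) = -u := by
  classical
  have hodd : Odd (Fintype.card K) := Nat.odd_iff.2 (by omega)
  have two : (2 : K) ≠ 0 := two_of_odd hodd
  have hchar : ringChar K ≠ 2 := by
    intro h
    exact two (by
      have : ((ringChar K : ℕ) : K) = 0 := ringChar.Nat.cast_ringChar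
      rw [h] at this
      exact_mod_cast this)
  have h1 : ¬ IsSquare (-1 : K) := by
    rw [FiniteField.isSquare_neg_one_iff]
    exact fun h => h hq
  obtain ⟨a, ε, ha, hε⟩ : ∃ a ε : K, 2 * (a * a) = ε ∧ ε * ε = 1 := by
    have h2 : (2 : K)⁻¹ ≠ 0 := inv_ne_zero two
    by_cases hs : IsSquare (2 : K)⁻¹
    · obtain ⟨a, ha⟩ := hs
      exact ⟨a, 1, by rw [← ha, mul_inv_cancel₀ two], one_mul 1⟩
    · have h3 : quadraticChar K (-1 * 2⁻¹) = 1 := by
        rw [map_mul, (quadraticChar_neg_one_iff_not_isSquare).2 h1, (quadraticChar_neg_one_iff_not_isSquare).2 hs]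
        norm_num
      rw [quadraticChar_one_iff_isSquare (mul_ne_zero (neg_ne_zero.2 one_ne_zero) h2)] at h3
      obtain ⟨a, ha⟩ := h3
      refine ⟨a, -1, ?_, by ring⟩
      rw [← ha]
      field_simp
  have hεne : ε ≠ 0 := by
    rintro rfl
    rw [mul_zero] at hε
    exact zero_ne_one hε
  have hdet : (!![a, a; -a, a] : Matrix (Fin 2) (Fin 2) K).det ≠ 0 := by
    rw [Matrix.det_fin_two_of]
    have : a * a - a * -a = ε := by rw [← ha]; ring
    rw [this]
    exact hεne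
  refine ⟨glEquiv (Matrix.GeneralLinearGroup.mkOfDetNeZero !![a, a; -a, a] hdet), 2 * a, -ε, ?_, ?_⟩
  · intro u
    simp only [glEquiv_apply]
    change (!![a, a; -a, a] : Matrix (Fin 2) (Fin 2) K).mulVec ((!![a, a; -a, a] : Matrix (Fin 2) (Fin 2) K).mulVec u) =
      (2 * a) • (!![a, a; -a, a] : Matrix (Fin 2) (Fin 2) K).mulVec u + (-ε) • u
    funext i
    fin_cases i
    · simp [Matrix.mulVec, dotProduct, Fin.sum_univ_two]
      linear_combination (-u 0) * ha
    · simp [Matrix.mulVec, dotProduct, Fin.sum_univ_two]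
      linear_combination (-u 1) * ha
  · intro u
    simp only [glEquiv_apply]
    have hM2 : ∀ v : Fin 2 → K, (!![a, a; -a, a] : Matrix (Fin 2) (Fin 2) K).mulVec
        ((!![a, a; -a, a] : Matrix (Fin 2) (Fin 2) K).mulVec v) = ![ε * v 1, -ε * v 0] := by
      intro v
      funext i
      fin_cases i
      · simp [Matrix.mulVec, dotProduct, Fin.sum_univ_two]
        linear_combination (v 1) * ha
      · simp [Matrix.mulVec, dotProduct, Fin.sum_univ_two]
        linear_combination (-v 0) * ha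
    change (!![a, a; -a, a] : Matrix (Fin 2) (Fin 2) K).mulVec ((!![a, a; -a, a] : Matrix (Fin 2) (Fin 2) K).mulVec
      ((!![a, a; -a, a] : Matrix (Fin 2) (Fin 2) K).mulVec ((!![a, a; -a, a] : Matrix (Fin 2) (Fin 2) K).mulVec u))) = -u
    rw [hM2, hM2]
    funext i
    fin_cases i
    · simp
      linear_combination (u 0) * hε
    · simp
      linear_combination (u 1) * hε

theorem exists_A [Fintype K] (hq : Fintype.card K % 4 = 3) (P : Sylow 2 ((Fin 2 → K) ≃ₗ[K] (Fin 2 → K))) :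
    ∃ (A : (Fin 2 → K) ≃ₗ[K] (Fin 2 → K)) (τ δ : K), A ∈ (P : Subgroup ((Fin 2 → K) ≃ₗ[K] (Fin 2 → K))) ∧
      (∀ u, A (A u) = τ • A u + δ • u) ∧ ∀ u, A (A (A (A u))) = -u := by
  have hp : Fact (Nat.Prime 2) := ⟨Nat.prime_two⟩
  have hf : Finite ((Fin 2 → K) ≃ₗ[K] (Fin 2 → K)) := finite_gl
  obtain ⟨A, τ, δ, h1, h2⟩ := exists_A0 hq
  have h8 : A ^ 2 ^ 3 = 1 := by
    ext u k
    have : (A ^ 2 ^ 3) u = A (A (A (A (A (A (A (A u))))))) := rfl
    rw [this, h2, h2, neg_neg]
    rfl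
  obtain ⟨g, hg⟩ := Cfsg.Agent.ClosedTwo.Elem.exists_conj_le P (isPGroup_zpowers h8)
  have h3 := hg A (Subgroup.mem_zpowers A)
  have h4 : ∀ u, (g * A * g⁻¹) u = g (A (g⁻¹ u)) := fun u => rfl
  have h5 : ∀ u, g⁻¹ (g u) = u := fun u => LinearEquiv.congr_fun (inv_mul_cancel g) u
  have h6 : ∀ u, g (g⁻¹ u) = u := fun u => LinearEquiv.congr_fun (mul_inv_cancel g) u
  refine ⟨g * A * g⁻¹, τ, δ, h3, ?_, ?_⟩
  · intro u
    rw [h4, h4, h5, h1, map_add, map_smul, map_smul, h6]
  · intro u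
    rw [h4, h4, h4, h4, h5, h5, h5, h2, map_neg, h6]

/-! ### The Sylow subgroup -/

theorem two_part [Fintype K] (two : (2 : K) ≠ 0) (m r : ℕ) (hr : r ≤ 1) :
    (Nat.card ((Ix (Fin m) (Fin r) → K) ≃ₗ[K] (Ix (Fin m) (Fin r) → K))).factorization 2 =
      m * (Nat.card ((Fin 2 → K) ≃ₗ[K] (Fin 2 → K))).factorization 2 + (Nat.card (Perm (Fin m))).factorization 2 +
        r * (Nat.card Kˣ).factorization 2 := by
  have hodd := odd_of_two two
  have h1 : 1 < Fintype.card K := Fintype.one_lt_card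
  rw [card_gl (n := 2 * m + r) (by simp [mul_comm]), card_gl (n := 2) (by simp)]
  have e1 := Num.v2_gl hodd h1 m r hr
  have e2 := Num.v2_gl hodd h1 1 0 (by norm_num)
  simp only [Num.v2] at e1 e2
  rw [e1]
  have e3 : (∏ i : Fin 2, (Fintype.card K ^ 2 - Fintype.card K ^ (i : ℕ))).factorization 2 =
      (Fintype.card K - 1).factorization 2 + (Fintype.card K ^ 2 - 1).factorization 2 := by
    have := e2
    simp only [mul_one, add_zero, one_mul, Nat.factorial_one, Nat.factorization_one, Finsupp.coe_zero, Pi.zero_apply,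
      zero_mul] at this
    exact this
  rw [e3, Nat.card_perm, Nat.card_eq_fintype_card (α := Fin m), Fintype.card_fin, Nat.card_units,
    Nat.card_eq_fintype_card (α := K)]

theorem card_sylow_R [Fintype K] (two : (2 : K) ≠ 0) (m r : ℕ) (hr : r ≤ 1) (P : Sylow 2 ((Fin 2 → K) ≃ₗ[K] (Fin 2 → K)))
    (D : Sylow 2 Kˣ) (Q : Sylow 2 (Perm (Fin m))) :
    Nat.card ↥(R (β := Fin r) (P : Subgroup ((Fin 2 → K) ≃ₗ[K] (Fin 2 → K))) (D : Subgroup Kˣ)
      (Q : Subgroup (Perm (Fin m)))) =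
      2 ^ (Nat.card ((Ix (Fin m) (Fin r) → K) ≃ₗ[K] (Ix (Fin m) (Fin r) → K))).factorization 2 := by
  have hp : Fact (Nat.Prime 2) := ⟨Nat.prime_two⟩
  have hf : Finite ((Fin 2 → K) ≃ₗ[K] (Fin 2 → K)) := finite_gl
  rw [card_R, two_part two m r hr, Fintype.card_fin, Fintype.card_fin]
  have h1 : Nat.card (P : Subgroup ((Fin 2 → K) ≃ₗ[K] (Fin 2 → K))) = _ := P.card_eq_multiplicity
  have h2 : Nat.card (D : Subgroup Kˣ) = _ := D.card_eq_multiplicity
  have h3 : Nat.card (Q : Subgroup (Perm (Fin m))) = _ := Q.card_eq_multiplicity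
  rw [h1, h2, h3, ← pow_mul, ← pow_mul, ← pow_add, ← pow_add]
  congr 1
  ring

/-- **Upper bound, `q ≡ 3 (mod 4)`.** -/
theorem upper_three [Fintype K] (hq : Fintype.card K % 4 = 3) (m r : ℕ) (hr : r ≤ 1) :
    ∃ S : Sylow 2 ((Ix (Fin m) (Fin r) → K) ≃ₗ[K] (Ix (Fin m) (Fin r) → K)), Upper S ((2 * m + r + 1) / 2) := by
  classical
  have hp : Fact (Nat.Prime 2) := ⟨Nat.prime_two⟩
  have hf : Finite ((Fin 2 → K) ≃ₗ[K] (Fin 2 → K)) := finite_gl
  have hf' : Finite ((Ix (Fin m) (Fin r) → K) ≃ₗ[K] (Ix (Fin m) (Fin r) → K)) := finite_gl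
  have two : (2 : K) ≠ 0 := two_of_odd (Nat.odd_iff.2 (by omega))
  have hns : ∀ c : K, c * c ≠ -1 := by
    intro c hc
    have : IsSquare (-1 : K) := ⟨c, hc.symm⟩
    rw [FiniteField.isSquare_neg_one_iff] at this
    exact this hq
  have P : Sylow 2 ((Fin 2 → K) ≃ₗ[K] (Fin 2 → K)) := default
  have D : Sylow 2 Kˣ := default
  have Q : Sylow 2 (Perm (Fin m)) := default
  obtain ⟨S, hS⟩ := exists_sylow_eq _ (card_sylow_R two m r hr P D Q)
  obtain ⟨A, τ, δ, hAP, hA, hA4⟩ := exists_A hq P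
  refine ⟨S, upper_of _ ?_⟩
  intro E hES hn h1 h2
  have hdim : finrank K (Ix (Fin m) (Fin r) → K) = 2 * m + r := by
    rw [finrank_fintype_fun_eq_card]
    simp [mul_comm]
  obtain ⟨b, c, hc, hc1, hcard⟩ := exists_wt two E h1 h2 hdim
  have hblk : ∀ j, (∀ l, c l = c j → l = j) → ∀ i, blkC i (b j) = 0 := by
    intro j hj i
    have hxS : J (Pi.mulSingle i A, (1 : Fin r → Kˣ)) ∈ (S : Subgroup ((Ix (Fin m) (Fin r) → K) ≃ₗ[K] (Ix (Fin m) (Fin r) → K))) := by
      rw [hS, mem_R]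
      refine ⟨(Pi.mulSingle i A, 1), 1, Subgroup.one_mem _, ?_, fun _ => Subgroup.one_mem _, by rw [map_one, mul_one]⟩
      intro k
      by_cases hk : k = i
      · subst hk
        change (Pi.mulSingle k A : Fin m → (Fin 2 → K) ≃ₗ[K] (Fin 2 → K)) k ∈ _
        rw [Pi.mulSingle_eq_same]
        exact hAP
      · change (Pi.mulSingle i A : Fin m → (Fin 2 → K) ≃ₗ[K] (Fin 2 → K)) k ∈ _
        rw [Pi.mulSingle_eq_of_ne hk]
        exact Subgroup.one_mem _
    refine blk_eq_zero hns E b c hc i A τ δ hA hA4 ?_ j hj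
    intro e he
    have := hn _ (Subgroup.inv_mem _ hxS) e he
    rwa [inv_inv] at this
  have hzero : ∀ j, (∀ l, c l = c j → l = j) → ∀ p, b j (Sum.inl p) = 0 := fun j hj p => congrFun (hblk j hj p.1) p.2
  have hsub : Subsingleton (Fin r) := ⟨fun a b => Fin.ext (by have := a.2; have := b.2; omega)⟩
  have hkey : ∀ j j', (∀ l, c l = c j → l = j) → (∀ l, c l = c j' → l = j') → j = j' := by
    intro j j' hj hj'
    by_contra hne
    obtain ⟨o, ho⟩ : ∃ o : Fin r, b j (Sum.inr o) ≠ 0 := by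
      by_contra hall
      push Not at hall
      apply b.ne_zero j
      funext o
      rcases o with p | o
      · exact hzero j hj p
      · exact hall o
    have h3 : (b j' (Sum.inr o)) • b j = (b j (Sum.inr o)) • b j' := by
      funext p
      rcases p with p | p
      · rw [Pi.smul_apply, Pi.smul_apply, hzero j hj, hzero j' hj', smul_zero, smul_zero]
      · rw [Pi.smul_apply, Pi.smul_apply, Subsingleton.elim p o, smul_eq_mul, smul_eq_mul, mul_comm]
    have h4 := congrArg (fun v => b.repr v j') h3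
    simp only [map_smul, Basis.repr_self, Finsupp.smul_apply, Finsupp.single_eq_same, smul_eq_mul, mul_one] at h4
    rw [Finsupp.single_eq_of_ne (Ne.symm hne), mul_zero] at h4
    exact ho h4.symm
  have h5 := two_mul_card_image_le_succ c hkey
  rw [Fintype.card_fin] at h5
  exact hcard.trans (Nat.pow_le_pow_right (by norm_num) (by omega))

/-- **Upper bound, all odd `q`.** -/
theorem upper_one [Fintype K] {V : Type*} [AddCommGroup V] [Module K V] [FiniteDimensional K V] [Finite (V ≃ₗ[K] V)]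
    (two : (2 : K) ≠ 0) {n : ℕ} (hn : finrank K V = n) (S : Subgroup (V ≃ₗ[K] V)) : Upper S n := by
  classical
  refine upper_of _ ?_
  intro E _ _ h1 h2
  obtain ⟨b, c, hc, hc1, hcard⟩ := exists_wt two E h1 h2 hn
  refine hcard.trans (Nat.pow_le_pow_right (by norm_num) ?_)
  have := Finset.card_image_le (s := (Finset.univ : Finset (Fin n))) (f := c)
  rwa [Finset.card_univ, Fintype.card_fin] at this

end Cfsg.Agent.H100.GLTwo
end

-- part: H100/GLTwoLower
section
/-!
# The normal 2-rank of a Sylow 2-subgroup of `GL_n(q)`, `q` odd: lower bounds (helper100)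
-/

set_option autoImplicit false

namespace Cfsg.Agent.H100.GLTwo

open Module Cfsg.Agent.FooteOdd Cfsg.Agent.H100.Diag Cfsg.Agent.H100.NormRank Equiv

variable {K : Type*} [Field K]

theorem mem_zpowers_of_sq {G : Type*} [Group G] {z x : G} (hz : z * z = 1) (hx : x ∈ Subgroup.zpowers z) :
    x = 1 ∨ x = z := by
  obtain ⟨k, rfl⟩ := Subgroup.mem_zpowers_iff.1 hx
  have h2 : z ^ (2 : ℤ) = 1 := by rw [zpow_two, hz]
  rcases Int.even_or_odd k with ⟨l, rfl⟩ | ⟨l, rfl⟩
  · left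
    rw [← two_mul, zpow_mul, h2, one_zpow]
  · right
    rw [zpow_add, zpow_mul, h2, one_zpow, one_mul, zpow_one]

theorem card_zpowers_of_sq {G : Type*} [Group G] {z : G} (hz : z * z = 1) (hz1 : z ≠ 1) :
    Nat.card (Subgroup.zpowers z) = 2 := by
  rw [Nat.card_zpowers]
  exact orderOf_eq_prime (by rw [pow_two, hz]) hz1

theorem neg_one_ne (two : (2 : K) ≠ 0) : (-1 : Kˣ) ≠ 1 := by
  intro h
  have h1 : (-1 : K) = 1 := by simpa using congrArg Units.val h
  apply two
  have h2 : (1 : K) + 1 = 0 := by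
    nth_rewrite 1 [← h1]
    exact neg_add_cancel 1
  rw [← one_add_one_eq_two]
  exact h2

theorem sc_neg_ne {ι : Type*} [Nonempty ι] (two : (2 : K) ≠ 0) : (sc (-1) : (ι → K) ≃ₗ[K] (ι → K)) ≠ 1 := by
  intro h
  obtain ⟨i⟩ := ‹Nonempty ι›
  have h1 := congrFun (LinearEquiv.congr_fun h (fun _ => 1)) i
  rw [sc_apply] at h1
  have h2 : (-1 : K) = 1 := by simpa using h1
  exact neg_one_ne two (Units.ext (by simpa using h2))

theorem sc_neg_sq {ι : Type*} : (sc (-1) : (ι → K) ≃ₗ[K] (ι → K)) * sc (-1) = 1 := by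
  rw [← sc_mul, neg_mul_neg, one_mul]
  ext v i
  simp

/-- **Lower bound, all odd `q`.** -/
theorem lower_three [Fintype K] (two : (2 : K) ≠ 0) (m r : ℕ) (hr : r ≤ 1)
    (S : Sylow 2 ((Ix (Fin m) (Fin r) → K) ≃ₗ[K] (Ix (Fin m) (Fin r) → K))) : Lower S (m + r) := by
  classical
  have hp : Fact (Nat.Prime 2) := ⟨Nat.prime_two⟩
  have hf : Finite ((Fin 2 → K) ≃ₗ[K] (Fin 2 → K)) := finite_gl
  have hf' : Finite ((Ix (Fin m) (Fin r) → K) ≃ₗ[K] (Ix (Fin m) (Fin r) → K)) := finite_gl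
  set Z : Subgroup ((Fin 2 → K) ≃ₗ[K] (Fin 2 → K)) := Subgroup.zpowers (sc (-1)) with hZ
  set D : Subgroup Kˣ := Subgroup.zpowers (-1) with hD
  have hZc : ∀ z ∈ Z, ∀ g, g * z = z * g := by
    intro z hz g
    rcases mem_zpowers_of_sq sc_neg_sq hz with rfl | rfl
    · rw [one_mul, mul_one]
    · exact (sc_comm _ _).symm
  have hZ2 : ∀ z ∈ Z, z * z = 1 := by
    intro z hz
    rcases mem_zpowers_of_sq sc_neg_sq hz with rfl | rfl
    · rw [one_mul]
    · exact sc_neg_sq
  have hD2 : ∀ z ∈ D, z * z = 1 := by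
    intro z hz
    rcases mem_zpowers_of_sq (by rw [neg_mul_neg, one_mul]) hz with rfl | rfl
    · rw [one_mul]
    · rw [neg_mul_neg, one_mul]
  refine lower_of (R (β := Fin r) ⊤ ⊤ ⊤) (R (β := Fin r) Z D (⊥ : Subgroup (Perm (Fin m)))) ?_ ?_ ?_ ?_ ?_ S
  · rintro g ⟨p, π, hπ, h1, h2, h3⟩
    exact ⟨p, π, trivial, fun _ => trivial, fun _ => trivial, h3⟩
  · rintro g ⟨p, π, -, -, -, rfl⟩ e ⟨p', π', hπ', h1, h2, rfl⟩
    rw [Subgroup.mem_bot] at hπ'
    subst hπ'
    refine ⟨p * (p'.1 ∘ ⇑π⁻¹, p'.2) * p⁻¹, 1, Subgroup.one_mem _, ?_, ?_, ?_⟩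
    · intro i
      change p.1 i * p'.1 (π⁻¹ i) * (p.1 i)⁻¹ ∈ Z
      rw [hZc _ (h1 (π⁻¹ i)), mul_inv_cancel_right]
      exact h1 _
    · intro j
      change p.2 j * p'.2 j * (p.2 j)⁻¹ ∈ D
      rw [mul_comm (p.2 j), mul_inv_cancel_right]
      exact h2 _
    · rw [map_one, mul_one, mul_one, map_mul, map_mul, ← bp_J, map_inv]
      group
  · rw [elemAb_iff]
    constructor
    · rintro _ ⟨p, π, hπ, h1, h2, rfl⟩ _ ⟨p', π', hπ', h1', h2', rfl⟩
      rw [Subgroup.mem_bot] at hπ hπ'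
      subst hπ hπ'
      rw [map_one, mul_one, mul_one, ← map_mul, ← map_mul]
      congr 1
      refine Prod.ext (funext fun i => ?_) (funext fun j => ?_)
      · exact hZc _ (h1' i) _
      · exact mul_comm _ _
    · rintro _ ⟨p, π, hπ, h1, h2, rfl⟩
      rw [Subgroup.mem_bot] at hπ
      subst hπ
      rw [map_one, mul_one, ← map_mul]
      have : p * p = 1 := by
        refine Prod.ext (funext fun i => ?_) (funext fun j => ?_)
        · exact hZ2 _ (h1 i)
        · exact hD2 _ (h2 j)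
      rw [this, map_one]
  · rw [card_R, two_part two m r hr, Fintype.card_fin, Fintype.card_fin, Subgroup.card_top, Subgroup.card_top,
      Subgroup.card_top, Nat.factorization_mul, Nat.factorization_mul, Nat.factorization_pow, Nat.factorization_pow]
    · simp only [Finsupp.add_apply, Finsupp.smul_apply, smul_eq_mul]
      ring
    · exact pow_ne_zero _ Nat.card_pos.ne'
    · exact pow_ne_zero _ Nat.card_pos.ne'
    · exact mul_ne_zero (pow_ne_zero _ Nat.card_pos.ne') (pow_ne_zero _ Nat.card_pos.ne')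
    · exact Nat.card_pos.ne'
  · rw [card_R, hZ, hD, card_zpowers_of_sq sc_neg_sq (sc_neg_ne two),
      card_zpowers_of_sq (by rw [neg_mul_neg, one_mul]) (neg_one_ne two), Fintype.card_fin, Fintype.card_fin,
      Subgroup.card_bot, mul_one, pow_add]

/-! ### Monomial operators -/

/-- monomial operators with entries in `D` and permutations in `Q` -/
def Mon {ι : Type*} (D : Subgroup Kˣ) (Q : Subgroup (Perm ι)) : Subgroup ((ι → K) ≃ₗ[K] (ι → K)) where
  carrier := {g | ∃ d : ι → Kˣ, ∃ σ ∈ Q, (∀ i, d i ∈ D) ∧ g = dg d * pm σ}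
  mul_mem' := by
    rintro _ _ ⟨d, σ, hσ, h1, rfl⟩ ⟨d', σ', hσ', h1', rfl⟩
    refine ⟨d * (d' ∘ ⇑σ⁻¹), σ * σ', Q.mul_mem hσ hσ', fun i => D.mul_mem (h1 i) (h1' _), ?_⟩
    rw [map_mul, map_mul, ← pm_dg]
    group
  one_mem' := ⟨1, 1, Q.one_mem, fun i => D.one_mem, by simp⟩
  inv_mem' := by
    rintro _ ⟨d, σ, hσ, h1, rfl⟩
    refine ⟨d⁻¹ ∘ ⇑σ, σ⁻¹, Q.inv_mem hσ, fun i => D.inv_mem (h1 _), ?_⟩
    have := pm_dg (K := K) σ⁻¹ d⁻¹
    rw [inv_inv] at this
    rw [← this, mul_inv_rev, map_inv, map_inv]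
    group

theorem eq_one_of_dg_eq_pm {ι : Type*} [DecidableEq ι] {d : ι → Kˣ} {σ : Perm ι} (h : dg d = pm (K := K) σ) : σ = 1 := by
  ext i
  by_contra hi'
  have hi : σ i ≠ i := hi'
  have h1 := congrFun (LinearEquiv.congr_fun h (Pi.single i 1)) (σ i)
  rw [dg_apply, pm_apply, show σ⁻¹ (σ i) = i from σ.symm_apply_apply i, Pi.single_eq_same, Pi.single_eq_of_ne hi,
    mul_zero] at h1
  exact zero_ne_one h1

theorem card_Mon {ι : Type*} [Fintype ι] [DecidableEq ι] (D : Subgroup Kˣ) (Q : Subgroup (Perm ι)) :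
    Nat.card ↥(Mon D Q) = Nat.card D ^ Fintype.card ι * Nat.card Q := by
  let f : (ι → ↥D) × ↥Q → ↥(Mon D Q) := fun x =>
    ⟨dg (fun i => (x.1 i : Kˣ)) * pm x.2, _, _, x.2.2, fun i => (x.1 i).2, rfl⟩
  have hf : Function.Bijective f := by
    constructor
    · rintro ⟨d, σ⟩ ⟨d', σ'⟩ h
      have h1 : dg (fun i => (d i : Kˣ)) * pm (K := K) (σ : Perm ι) = dg (fun i => (d' i : Kˣ)) * pm (σ' : Perm ι) :=
        congrArg Subtype.val h
      have h2 : dg ((fun i => (d' i : Kˣ))⁻¹ * (fun i => (d i : Kˣ))) = pm (K := K) ((σ' : Perm ι) * (σ : Perm ι)⁻¹) := by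
        rw [map_mul, map_mul, map_inv, map_inv, inv_mul_eq_iff_eq_mul, ← mul_assoc, ← h1, mul_inv_cancel_right]
      have h3 := eq_one_of_dg_eq_pm h2
      have h4 : σ' = σ := Subtype.ext (mul_inv_eq_one.1 h3)
      subst h4
      have h5 := dg_injective (mul_right_cancel h1)
      exact Prod.ext (funext fun i => Subtype.ext (congrFun h5 i)) rfl
    · rintro ⟨_, d, σ, hσ, h1, rfl⟩
      exact ⟨(fun i => ⟨d i, h1 i⟩, ⟨σ, hσ⟩), rfl⟩
  rw [← Nat.card_congr (Equiv.ofBijective f hf), Nat.card_prod, Nat.card_fun, Nat.card_eq_fintype_card (α := ι)]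

theorem v2_factorial (m r : ℕ) (hr : r ≤ 1) : Num.v2 (2 * m + r).factorial = m + Num.v2 m.factorial := by
  have h := Num.sum_w' (w := Num.v2) (c1 := 0) (c2 := 1) (fun k => Num.v2_odd ⟨k, rfl⟩)
    (fun k => by rw [Num.v2_mul (by norm_num) (by omega), Num.v2_two]) m r hr
  have h2 : ∀ n : ℕ, Num.v2 n.factorial = ∑ i ∈ Finset.range n, Num.v2 (i + 1) := by
    intro n
    induction n with
    | zero => simp [Num.v2]
    | succ n ih => rw [Nat.factorial_succ, Num.v2_mul (by omega) (Nat.factorial_ne_zero n), Finset.sum_range_succ, ih, add_comm]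
  rw [h2, h]
  ring

theorem v2_gl_one {q : ℕ} (hq : q % 4 = 1) (hq1 : 1 < q) (n : ℕ) :
    Num.v2 (∏ i : Fin n, (q ^ n - q ^ (i : ℕ))) = n * Num.v2 (q - 1) + Num.v2 n.factorial := by
  obtain ⟨m, r, hr, rfl⟩ : ∃ m r, r ≤ 1 ∧ n = 2 * m + r := ⟨n / 2, n % 2, by omega, by omega⟩
  have hodd : Odd q := Nat.odd_iff.2 (by omega)
  have h1 : Num.v2 (q ^ 2 - 1) = Num.v2 (q - 1) + 1 := by
    have h2 : q ^ 2 - 1 = (q + 1) * (q - 1) := by simpa using Nat.sq_sub_sq q 1
    have h3 : q + 1 = 2 * ((q + 1) / 2) := by omega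
    have h4 : Odd ((q + 1) / 2) := Nat.odd_iff.2 (by omega)
    rw [h2, Num.v2_mul (by omega) (by omega), h3, Num.v2_mul (by norm_num) (by omega), Num.v2_two, Num.v2_odd h4]
    ring
  rw [Num.v2_gl hodd hq1 m r hr, h1, v2_factorial m r hr]
  ring

/-- **Lower bound, `q ≡ 1 (mod 4)`.** -/
theorem lower_one [Fintype K] (hq : Fintype.card K % 4 = 1) (n : ℕ)
    (S : Sylow 2 ((Fin n → K) ≃ₗ[K] (Fin n → K))) : Lower S n := by
  classical
  have hp : Fact (Nat.Prime 2) := ⟨Nat.prime_two⟩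
  have hf' : Finite ((Fin n → K) ≃ₗ[K] (Fin n → K)) := finite_gl
  have two : (2 : K) ≠ 0 := two_of_odd (Nat.odd_iff.2 (by omega))
  set D : Subgroup Kˣ := Subgroup.zpowers (-1) with hD
  have hD2 : ∀ z ∈ D, z * z = 1 := by
    intro z hz
    rcases mem_zpowers_of_sq (by rw [neg_mul_neg, one_mul]) hz with rfl | rfl
    · rw [one_mul]
    · rw [neg_mul_neg, one_mul]
  refine lower_of (Mon ⊤ ⊤) (Mon D (⊥ : Subgroup (Perm (Fin n)))) ?_ ?_ ?_ ?_ ?_ S
  · rintro g ⟨p, π, hπ, h1, h3⟩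
    exact ⟨p, π, trivial, fun _ => trivial, h3⟩
  · rintro g ⟨p, π, -, -, rfl⟩ e ⟨p', π', hπ', h1, rfl⟩
    rw [Subgroup.mem_bot] at hπ'
    subst hπ'
    refine ⟨p * (p' ∘ ⇑π⁻¹) * p⁻¹, 1, Subgroup.one_mem _, ?_, ?_⟩
    · intro i
      change p i * p' (π⁻¹ i) * (p i)⁻¹ ∈ D
      rw [mul_comm (p i), mul_inv_cancel_right]
      exact h1 _
    · rw [map_one, mul_one, mul_one, map_mul, map_mul, ← pm_dg, map_inv]
      group
  · rw [elemAb_iff]
    constructor
    · rintro _ ⟨p, π, hπ, h1, rfl⟩ _ ⟨p', π', hπ', h1', rfl⟩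
      rw [Subgroup.mem_bot] at hπ hπ'
      subst hπ hπ'
      rw [map_one, mul_one, mul_one, ← map_mul, ← map_mul, mul_comm]
    · rintro _ ⟨p, π, hπ, h1, rfl⟩
      rw [Subgroup.mem_bot] at hπ
      subst hπ
      rw [map_one, mul_one, ← map_mul]
      have : p * p = 1 := funext fun i => hD2 _ (h1 i)
      rw [this, map_one]
  · have h1 : 1 < Fintype.card K := Fintype.one_lt_card
    have e := v2_gl_one hq h1 n
    simp only [Num.v2] at e
    rw [card_Mon, card_gl (n := n) (by simp), e, Fintype.card_fin, Subgroup.card_top, Subgroup.card_top,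
      Nat.factorization_mul (pow_ne_zero _ Nat.card_pos.ne') Nat.card_pos.ne', Nat.factorization_pow, Nat.card_perm,
      Nat.card_eq_fintype_card (α := Fin n), Fintype.card_fin, Nat.card_units, Nat.card_eq_fintype_card (α := K)]
    simp only [Finsupp.add_apply, Finsupp.smul_apply, smul_eq_mul]
  · rw [card_Mon, hD, card_zpowers_of_sq (by rw [neg_mul_neg, one_mul]) (neg_one_ne two), Fintype.card_fin,
      Subgroup.card_bot, mul_one]

end Cfsg.Agent.H100.GLTwo
end
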